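import Cfsg.Agent.H318.Four.Rad
import Cfsg.Agent.H336.LinFour.Equiv
import Cfsg.Agent.H339.TwFNo
import Cfsg.Agent.S1163
import Cfsg.Agent.S0243
import Cfsg.Agent.S0280
import Cfsg.Agent.LieClassical.FieldTransfer

/-!
# `Sit` in a group of Lie type of characteristic two: only `L₅(2)` (helper318)
-/

set_option autoImplicit false

namespace Cfsg.Agent.H318.Four.CharTwo

open Subgroup Cfsg Cfsg.Lie Cfsg.Agent.H336.LinFour Cfsg.Agent.KFacts.RgdLieCharP
  Cfsg.Agent.H318.SpSix.TwoPart Cfsg.Agent.H318.Four.Rad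
open Cfsg.Agent.SplitTwo Cfsg.Agent.SplitTwo.ZS Cfsg.Agent.TitsThree.RankTwoZ Cfsg.Agent.KFacts.TwF4
open Cfsg.Agent.KFacts.TwF4.Arc Cfsg.Agent.KFacts.TwF4.Irr Cfsg.Agent.KFacts.TwF4.Layers
open Cfsg.Agent.KFacts.TwF4.Perf Cfsg.Agent.KFacts.TwF4.Inv Cfsg.Agent.KFacts.TwF4.SylU
open Cfsg.Agent.H127.TwFInv

variable {K : Type*} [Group K] {th : V → K} {O K0 : Subgroup K}

theorem not_three_dvd_sz {m : ℕ} : ¬ 3 ∣ (2 ^ (2 * m + 1)) ^ 2 * (2 ^ (2 * m + 1) - 1) * ((2 ^ (2 * m + 1)) ^ 2 + 1) := by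
  have h1 : 2 ^ (2 * m + 1) % 3 = 2 := by
    rw [pow_succ, pow_mul, Nat.mul_mod, Nat.pow_mod]
    norm_num
  have h2 : 1 ≤ 2 ^ (2 * m + 1) := Nat.one_le_two_pow
  generalize 2 ^ (2 * m + 1) = q at h1 h2
  rw [Nat.prime_three.dvd_mul, Nat.prime_three.dvd_mul]
  rintro ((h3 | h3) | h3)
  · have := Nat.prime_three.dvd_of_dvd_pow h3
    omega
  · omega
  · have h4 : (q ^ 2 + 1) % 3 = 2 := by
      rw [Nat.add_mod, Nat.pow_mod, h1]
    omega

/-- no `Sit` in `²F₄(q)` -/
theorem no_twF4 [Finite K] (hK : Iso2F4 K) (h : Sit th O K0) : False := by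
  obtain ⟨F, _, _, m, hm, hF2, ⟨e⟩⟩ := hK
  obtain ⟨φ, hφ⟩ := Cfsg.Agent.ChevalleyStructure.TwF4.TwistedFix.exists_rln hF2
  have := Cfsg.Agent.ChevalleyStructure.TwF4.Twisted.charP_two hF2
  have hfin : Finite ↥(twistedF4 F (2 ^ m)) := inferInstance
  have hF : ∃ c : Fˣ, c ≠ 1 := by
    have h1 : 1 < Nat.card Fˣ := by
      rw [Nat.card_units, Nat.card_eq_fintype_card, hF2]
      have : 2 ^ 3 ≤ 2 ^ (2 * m + 1) := Nat.pow_le_pow_right (by norm_num) (by omega)
      omega
    have h2 : Nontrivial Fˣ := Finite.one_lt_card_iff_nontrivial.1 h1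
    exact exists_ne 1
  obtain ⟨S, hS⟩ : ∃ S : Full φ ↥(twistedF4 F (2 ^ m)), S.R.p = 2 :=
    ⟨Cfsg.Agent.KFacts.TwF4.Inst.full hF2 hφ, rfl⟩
  have h' := h.equiv e
  set G := ↥(twistedF4 F (2 ^ m)) with hG
  have hcF : Nat.card F = 2 ^ (2 * m + 1) := by rw [Nat.card_eq_fintype_card, hF2]
  obtain ⟨v, hv⟩ := exists_ne
  -- the central involution
  set z : G := S.e 2 0 1 with hz
  have hzZ : z ∈ S.Zc 2 := ⟨1, rfl⟩
  have hz1 : z ≠ 1 := fun hh => one_ne_zero (S.e_eq_one hh).2
  have : Fact (Nat.Prime 2) := ⟨Nat.prime_two⟩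
  obtain ⟨P, hP⟩ := exists_sylow S hF hS
  have hzP : z ∈ (P : Subgroup G) := by
    rw [hP]
    exact X_le_J (by norm_num) (by norm_num) (S.Zc_le 2 hzZ)
  obtain ⟨n, hn⟩ := P.2 ⟨z, hzP⟩
  have hcz := S.centralizer_z hzZ hz1
  have hi : ¬ 2 ∣ (centralizer ({z} : Set G)).index := by
    intro h2
    refine P.not_dvd_index (h2.trans (index_dvd_of_le ?_))
    rw [hcz, hP]
    exact J_mono (by norm_num) le_rfl
  obtain ⟨g, hg⟩ := h'.exists_conj_of_odd_index hz1 (n := n) (congrArg Subtype.val hn) hi hv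
  have h3 := dvd_centralizer h' hv
  have : Fact (Nat.Prime 3) := ⟨Nat.prime_three⟩
  obtain ⟨a, ha⟩ := exists_prime_orderOf_dvd_card' 3 ((show 3 ∣ 1344 * 16 by norm_num).trans h3)
  rw [← Subgroup.orderOf_coe] at ha
  have hac := mem_centralizer_singleton_iff.1 a.2
  have hPL : g⁻¹ * a * g ∈ S.PL := by
    rw [← hcz, mem_centralizer_singleton_iff]
    have : z = g⁻¹ * (e (th v)) * g := by rw [← hg]; group
    rw [this]
    calc g⁻¹ * a * g * (g⁻¹ * e (th v) * g) = g⁻¹ * (a * e (th v)) * g := by group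
      _ = g⁻¹ * (e (th v) * a) * g := by rw [hac]
      _ = _ := by group
  have ho : orderOf (g⁻¹ * (a : G) * g) = 3 := by
    rw [← ha]
    have := (MulAut.conj g⁻¹).orderOf_eq (a : G)
    rwa [MulAut.conj_apply, inv_inv] at this
  have h4 : 3 ∣ Nat.card S.PL := by
    rw [← ho, ← Subgroup.orderOf_mk _ hPL]
    exact orderOf_dvd_natCard _
  rw [card_PL S] at h4
  have hq3 : 2 ^ (2 * m + 1) % 3 = 2 := by
    rw [pow_succ, pow_mul, Nat.mul_mod, Nat.pow_mod]
    norm_num
  rcases Nat.prime_three.dvd_mul.1 h4 with h5 | h5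
  · have h6 := prime_BT S hS Nat.prime_three (by norm_num) (h5.trans (Subgroup.card_dvd_of_le inf_le_right))
    rw [hcF] at h6
    omega
  · rw [hcF] at h5
    have h6 : (1 + 2 ^ (2 * m + 1) * 2 ^ (2 * m + 1)) % 3 = 2 := by
      rw [Nat.add_mod, Nat.mul_mod, hq3]
    omega

theorem row_char2 [Finite K] [IsSimpleGroup K] (hK : IsLieTypeChar 2 K ∨ IsTits K) (h : Sit th O K0) :
    Nonempty (K ≃* GL (Fin 5) (ZMod 2)) := by
  classical
  have hcl : ∀ {d : ℕ}, d ∣ 20160 * 16 → ∀ {k n : ℕ}, k * Nat.card K = n → d ∣ n := by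
    intro d hd k n e
    rw [← e]
    exact (dvd_card h hd).mul_left k
  rcases hK with hK | hK
  · by_cases hf : IsLieFilt 2 K
    · have h15 := two_part_eq hf (exists_ncomm h) h
      rcases two_part hf with ⟨F, _, _, f, n, hf1, hF, hn, ⟨e⟩, h1⟩ | ⟨F, _, _, f, n, q, hf1, hq, hF, hn, ⟨e⟩, h1⟩ |
        ⟨f, m, hf1, hm, h1⟩ | ⟨f, m, hf1, hm, h1⟩ | ⟨f, hf1, h1⟩
      · rw [h15] at h1
        have hn6 : n ≤ 5 := by
          by_contra hn7
          push Not at hn7
          have h2 : 15 ≤ n * (n - 1) / 2 := by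
            rw [Nat.le_div_iff_mul_le (by norm_num)]
            calc 15 * 2 = 6 * 5 := by norm_num
              _ ≤ n * (n - 1) := Nat.mul_le_mul hn7 (by omega)
          nlinarith
        interval_cases n <;> norm_num at h1
        · -- n = 2
          exfalso
          have hf15 : f = 10 := by omega
          subst hf15
          have h2 := Cfsg.Agent.S0243.result hF 2 le_rfl
          rw [← Nat.card_congr e.toEquiv, ← mul_assoc] at h2
          have h3 := hcl (d := 7) (by norm_num) h2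
          rw [Fin.prod_univ_two] at h3
          norm_num at h3
        · omega
        · omega
        · have hf1' : f = 1 := by omega
          subst hf1'
          obtain ⟨e2⟩ := equiv_psl 5
          have e3 : F ≃+* ZMod 2 := FiniteField.ringEquivOfCardEq ((hF.trans (pow_one 2)).trans (ZMod.card 2).symm)
          exact ⟨e.trans ((LieClassical.FieldTransfer.pslCongr e3).trans e2.symm)⟩
      · exfalso
        rw [h15] at h1
        have hn6 : n ≤ 5 := by
          by_contra hn7
          push Not at hn7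
          have h2 : 15 ≤ n * (n - 1) / 2 := by
            rw [Nat.le_div_iff_mul_le (by norm_num)]
            calc 15 * 2 = 6 * 5 := by norm_num
              _ ≤ n * (n - 1) := Nat.mul_le_mul hn7 (by omega)
          nlinarith
        subst hq
        interval_cases n <;> norm_num at h1
        · omega
        · omega
        · have hf1' : f = 1 := by omega
          subst hf1'
          have h2 := Cfsg.Agent.S0280.result hF 5 (by norm_num)
          rw [← Nat.card_congr e.toEquiv, ← mul_assoc] at h2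
          have h3 := hcl (d := 7) (by norm_num) h2
          rw [Finset.prod_range_succ, Finset.prod_range_succ, Finset.prod_range_succ, Finset.prod_range_succ,
            Finset.prod_range_succ, Finset.prod_range_zero] at h3
          norm_num at h3
      · exfalso
        rw [h15] at h1
        have hm3 : m ≤ 3 := by
          by_contra hm4
          push Not at hm4
          nlinarith
        interval_cases m <;> omega
      · exfalso
        rw [h15] at h1
        have h2 : 4 * 3 ≤ m * (m - 1) := Nat.mul_le_mul hm (by omega)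
        nlinarith
      · exfalso
        rw [h15] at h1
        omega
    · exfalso
      have h2 : Lie.IsoSuzuki K ∨ Lie.Iso2F4 K := by
        rcases hK with h1 | h1 | h1 | h1 | h1 | h1 | h1 | h1 | ⟨-, h1⟩ | ⟨-, h1⟩ | ⟨h1, -⟩
        · exact absurd (Or.inl h1) hf
        · exact absurd (Or.inr (Or.inl h1)) hf
        · exact absurd (Or.inr (Or.inr (Or.inl h1))) hf
        · exact absurd (Or.inr (Or.inr (Or.inr (Or.inl h1)))) hf
        · exact absurd (Or.inr (Or.inr (Or.inr (Or.inr (Or.inl h1))))) hf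
        · exact absurd (Or.inr (Or.inr (Or.inr (Or.inr (Or.inr (Or.inl h1)))))) hf
        · exact absurd (Or.inr (Or.inr (Or.inr (Or.inr (Or.inr (Or.inr (Or.inl h1))))))) hf
        · exact absurd (Or.inr (Or.inr (Or.inr (Or.inr (Or.inr (Or.inr (Or.inr h1))))))) hf
        · exact Or.inl h1
        · exact Or.inr h1
        · exact absurd h1 (by norm_num)
      rcases h2 with ⟨F, _, _, m, hm, hF, ⟨e⟩⟩ | h2
      · have h3 := dvd_card h (d := 3) (by norm_num)
        rw [Nat.card_congr e.toEquiv, (Cfsg.Agent.S1163.result hm hF).1] at h3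
        exact not_three_dvd_sz h3
      · exact no_twF4 h2 h
  · exfalso
    have h1 := dvd_card h (d := 7) (by norm_num)
    rw [hK.2] at h1
    norm_num at h1

end Cfsg.Agent.H318.Four.CharTwo
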