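import Cfsg.Agent.H318.Four.SLTwo
import Cfsg.Agent.H785.SpE7End
import Cfsg.Agent.H336.LinFour.Equiv

/-!
# No `Sit` in `E₇(q)`, `q` odd (helper318)
-/

set_option autoImplicit false
set_option linter.unusedSectionVars false

namespace Cfsg.Agent.H318.Four.RowE7

open Cfsg Cfsg.Lie Subgroup Cfsg.Agent.H336.LinFour
open Cfsg.Agent.OddHalf.LongSL Cfsg.Agent.OddHalf.LongSL.Chev
open Cfsg.Agent.H785.SpE7

/-- **row `E7`** -/
theorem row_E7 {K : Type*} [Group K] [Finite K] {F : Type} [Field F] [Fintype F] (h2 : (2 : F) ≠ 0)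
    (e : K ≃* ↥(Lie.chevE7.group F)) {th : V → K} {O K0 : Subgroup K} (h : Sit th O K0) : False := by
  have hF := odd_of_two_ne h2
  have : Finite ↥(Lie.chevE7.group F) := Finite.of_equiv _ e.toEquiv
  exact SLTwo.false_of_phi (h.equiv e) hF (phi typeE7 F 0) (phi_injective typeE7 F 0 (two_ne_of_odd hF) chkOddE7)
    (nrm typeE7 F 0 hF chkE7 chkIsoE7) (indexE7 hF)

end Cfsg.Agent.H318.Four.RowE7
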